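import Cfsg.Agent.H321.Ker.Orb

/-!
# S2187, X4: the kernel row with a subgroup of `SL_p(k)`

* `comm_stm` : `σ ∘ ψ = ψ ∘ stm`, `σ y = y`, `y` acts as `cj x` : `cj x` commutes with `stm`;
* `relIndex_sup_zpowers` : `B` has index `p` in `B ⊔ ⟨f⟩`;
* `orb_sl_of` : `E` elementary abelian, `B ≤ E` of index `p ^ 2` centralises `ψ (SL_p(k))`, `ya`, `yb ∈ E` act as a
  non-commuting pair commuting with `stm`: a subgroup `M ≤ SL_p(k)` which contains the fixed points `g` of `stm` such that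
  `ψ g` commutes with a hyperplane of `E` contains all fixed points;
* `exists_fixed` : `r`-elements of `ψ (SL_p(k))` fixed by `σ` are images of fixed points.
-/

set_option autoImplicit false
set_option linter.unusedSectionVars false

universe u

namespace Cfsg.Agent.H321.Mono

open Cfsg Cfsg.Geo Cfsg.Agent.H321.Ker
open scoped MatrixGroups Matrix commutatorElement
open Matrix.SpecialLinearGroup (toGL transvection)

section Plane

variable {Y : Type*} [Group Y] {p : ℕ} [hp : Fact p.Prime]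

/-- `B` has index `p` in `B ⊔ ⟨f⟩` -/
theorem relIndex_sup_zpowers {B : Subgroup Y} {f : Y} (hf : f ^ p = 1) (hc : ∀ b ∈ B, f * b = b * f) (hfB : f ∉ B) :
    B.relIndex (B ⊔ Subgroup.zpowers f) = p ∧ ∀ x ∈ B ⊔ Subgroup.zpowers f, ∃ b ∈ B, ∃ m : ℤ, x = b * f ^ m := by
  have hp0 := hp.1.pos
  have hfo : orderOf f = p := orderOf_eq_prime hf (fun h => hfB (h ▸ B.one_mem))
  set F := B ⊔ Subgroup.zpowers f with hF
  have hcz : ∀ (m : ℤ), ∀ b ∈ B, f ^ m * b = b * f ^ m := fun m b hb =>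
    ((show Commute f b from hc b hb).zpow_left m).eq
  have hmem : ∀ x ∈ F, ∃ b ∈ B, ∃ m : ℤ, x = b * f ^ m := by
    intro x hx
    have h1 : F ≤ (⟨⟨⟨{x | ∃ b ∈ B, ∃ m : ℤ, x = b * f ^ m}, by
        rintro _ _ ⟨b, hb, m, rfl⟩ ⟨b', hb', m', rfl⟩
        refine ⟨b * b', mul_mem hb hb', m + m', ?_⟩
        calc b * f ^ m * (b' * f ^ m') = b * (f ^ m * b') * f ^ m' := by group
          _ = _ := by rw [hcz m b' hb']; group⟩, ⟨1, one_mem _, 0, by simp⟩⟩, by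
        rintro _ ⟨b, hb, m, rfl⟩
        refine ⟨b⁻¹, inv_mem hb, -m, ?_⟩
        rw [mul_inv_rev, ← zpow_neg, hcz (-m) b⁻¹ (inv_mem hb)]⟩ : Subgroup Y) := by
      refine sup_le (fun b hb => ⟨b, hb, 0, by simp⟩) ?_
      rw [Subgroup.zpowers_le]
      exact ⟨1, one_mem _, 1, by simp⟩
    exact h1 hx
  refine ⟨?_, hmem⟩
  have h2 : B.relIndex F = (B ⊓ Subgroup.zpowers f).relIndex (Subgroup.zpowers f) := by
    rw [Subgroup.inf_relIndex_right]
    have hn : (B.subgroupOf F).Normal := by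
      refine ⟨fun a ha g => ?_⟩
      obtain ⟨b, hb, m, hg⟩ := hmem g.1 g.2
      have h3 : (g * a * g⁻¹ : F).1 = b * a * b⁻¹ := by
        show (g : Y) * a * (g : Y)⁻¹ = _
        rw [hg, mul_inv_rev]
        calc b * f ^ m * (a : Y) * ((f ^ m)⁻¹ * b⁻¹) = b * (f ^ m * (a : Y)) * (f ^ m)⁻¹ * b⁻¹ := by group
          _ = _ := by rw [hcz m a ha]; group
      show (g * a * g⁻¹ : F).1 ∈ B
      rw [h3]
      exact mul_mem (mul_mem hb ha) (inv_mem hb)
    have h4 : (Subgroup.zpowers f).subgroupOf F ⊔ B.subgroupOf F = ⊤ := by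
      rw [eq_top_iff]
      rintro ⟨x, hx⟩ -
      obtain ⟨b, hb, m, rfl⟩ := hmem x hx
      have hbF : b ∈ F := (le_sup_left : B ≤ F) hb
      have hfF : f ^ m ∈ F := (le_sup_right : Subgroup.zpowers f ≤ F) (zpow_mem (Subgroup.mem_zpowers f) m)
      have h5 : (⟨b * f ^ m, hx⟩ : F) = ⟨b, hbF⟩ * ⟨f ^ m, hfF⟩ := rfl
      rw [h5]
      exact mul_mem ((le_sup_right : B.subgroupOf F ≤ _) hb)
        ((le_sup_left : (Subgroup.zpowers f).subgroupOf F ≤ _) (zpow_mem (Subgroup.mem_zpowers f) m))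
    have h6 : (B.subgroupOf F).relIndex ((Subgroup.zpowers f).subgroupOf F) = (B.subgroupOf F).index := by
      rw [← Subgroup.relIndex_sup_right, h4, Subgroup.relIndex_top_right]
    rw [Subgroup.relIndex_subgroupOf (le_sup_right : Subgroup.zpowers f ≤ F)] at h6
    exact h6.symm
  have h3 : B ⊓ Subgroup.zpowers f = ⊥ := by
    rw [eq_bot_iff]
    rintro x ⟨hxB, hxf⟩
    by_contra hx1
    have hx1' : x ≠ 1 := hx1
    have hxp : x ^ p = 1 := by
      obtain ⟨m, rfl⟩ := Subgroup.mem_zpowers_iff.1 hxf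
      rw [← zpow_natCast, ← zpow_mul, mul_comm, zpow_mul, zpow_natCast, hf, one_zpow]
    have h4 : Subgroup.zpowers x = Subgroup.zpowers f := by
      have hle : Subgroup.zpowers x ≤ Subgroup.zpowers f := Subgroup.zpowers_le.2 hxf
      have hxo : orderOf x = p := orderOf_eq_prime hxp hx1'
      have : Finite (Subgroup.zpowers f) := Nat.finite_of_card_ne_zero (by
        rw [Nat.card_zpowers, hfo]; exact hp0.ne')
      exact Subgroup.eq_of_le_of_card_ge hle (by rw [Nat.card_zpowers, Nat.card_zpowers, hxo, hfo])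
    have h5 : f ∈ Subgroup.zpowers x := by rw [h4]; exact Subgroup.mem_zpowers f
    exact hfB ((Subgroup.zpowers_le.2 hxB) h5)
  rw [h2, h3, Subgroup.relIndex_bot_left, Nat.card_zpowers, hfo]

/-- `B ⊔ ⟨y⟩ ⊔ ⟨f⟩` -/
theorem relIndex_two {E B : Subgroup Y} (hEp : ∀ a ∈ E, a ^ p = 1) (hEc : ∀ a ∈ E, ∀ b ∈ E, a * b = b * a)
    (hB : B ≤ E) {y f : Y} (hy : y ∈ E) (hf : f ∈ E) (hyB : y ∉ B) (hfy : ∀ b ∈ B, ∀ m : ℤ, f ≠ b * y ^ m)
    (hE : ∀ x ∈ E, ∃ b ∈ B, ∃ m n : ℤ, x = b * y ^ m * f ^ n) : B.relIndex E = p ^ 2 := by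
  obtain ⟨h1, h2⟩ := relIndex_sup_zpowers (hEp y hy) (fun b hb => hEc y hy b (hB hb)) hyB
  have hle : B ⊔ Subgroup.zpowers y ≤ E := sup_le hB (Subgroup.zpowers_le.2 hy)
  have hfn : f ∉ B ⊔ Subgroup.zpowers y := by
    intro hf'
    obtain ⟨b, hb, m, h3⟩ := h2 f hf'
    exact hfy b hb m h3
  obtain ⟨h3, -⟩ := relIndex_sup_zpowers (hEp f hf) (fun b hb => hEc f hf b (hle hb)) hfn
  have h4 : B ⊔ Subgroup.zpowers y ⊔ Subgroup.zpowers f = E := by
    refine le_antisymm (sup_le hle (Subgroup.zpowers_le.2 hf)) ?_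
    intro x hx
    obtain ⟨b, hb, m, n, rfl⟩ := hE x hx
    refine mul_mem ((le_sup_left : _ ≤ B ⊔ Subgroup.zpowers y ⊔ Subgroup.zpowers f) (mul_mem ?_ ?_)) ?_
    · exact (le_sup_left : B ≤ B ⊔ Subgroup.zpowers y) hb
    · exact (le_sup_right : Subgroup.zpowers y ≤ B ⊔ Subgroup.zpowers y) (zpow_mem (Subgroup.mem_zpowers y) m)
    · exact (le_sup_right : Subgroup.zpowers f ≤ B ⊔ Subgroup.zpowers y ⊔ Subgroup.zpowers f)
        (zpow_mem (Subgroup.mem_zpowers f) n)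
  rw [h4] at h3
  have h5 := Subgroup.relIndex_mul_relIndex B (B ⊔ Subgroup.zpowers y) E le_sup_left hle
  rw [← h5, h1, h3, pow_two]

/-- a cyclic extension: index `p` -/
theorem relIndex_one {E B : Subgroup Y} (hEp : ∀ a ∈ E, a ^ p = 1) (hEc : ∀ a ∈ E, ∀ b ∈ E, a * b = b * a)
    (hB : B ≤ E) {f : Y} (hf : f ∈ E) (hfB : f ∉ B)
    (hE : ∀ x ∈ E, ∃ b ∈ B, ∃ n : ℤ, x = b * f ^ n) : B.relIndex E = p := by
  obtain ⟨h1, h2⟩ := relIndex_sup_zpowers (hEp f hf) (fun b hb => hEc f hf b (hB hb)) hfB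
  have h4 : B ⊔ Subgroup.zpowers f = E := by
    refine le_antisymm (sup_le hB (Subgroup.zpowers_le.2 hf)) ?_
    intro x hx
    obtain ⟨b, hb, n, rfl⟩ := hE x hx
    exact mul_mem ((le_sup_left : B ≤ B ⊔ Subgroup.zpowers f) hb)
      ((le_sup_right : Subgroup.zpowers f ≤ B ⊔ Subgroup.zpowers f) (zpow_mem (Subgroup.mem_zpowers f) n))
  rwa [h4] at h1

end Plane

section Orb

variable {p : ℕ} [hp : Fact p.Prime] [NeZero p] {k : Type u} [Field k] [IsAlgClosed k] {r e : ℕ} [Fact r.Prime]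
  [CharP k r] {Y : Type*} [Group Y]

theorem comm_stm {n : ℕ} [NeZero n] (hn : 3 ≤ n) {ψ : Matrix.SpecialLinearGroup (Fin n) k →* Y} (hψ : ∃ g, ψ g ≠ 1)
    {σ : Y →* Y} {D : GL (Fin n) k} {uni : Bool} (hσ : ∀ g, σ (ψ g) = ψ (stm r e D uni g)) {y : Y} (hy : σ y = y)
    {x : GL (Fin n) k} (hx : ∀ g, y * ψ g * y⁻¹ = ψ (cj x g)) (g : Matrix.SpecialLinearGroup (Fin n) k) :
    stm r e D uni (cj x g) = cj x (stm r e D uni g) := by
  refine eq_of_psi hn hψ (f := (stm r e D uni).comp (cj x).toMonoidHom) (g := (cj x).toMonoidHom.comp (stm r e D uni))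
    (fun g => ?_) g
  show ψ (stm r e D uni (cj x g)) = ψ (cj x (stm r e D uni g))
  rw [← hσ, ← hx, map_mul, map_mul, map_inv, hy, hσ, hx]

theorem hpow {n : ℕ} [NeZero n] {ψ : Matrix.SpecialLinearGroup (Fin n) k →* Y} {y : Y} {x : GL (Fin n) k}
    (hx : ∀ g, y * ψ g * y⁻¹ = ψ (cj x g)) (i : ℕ) :
    ∀ g, y ^ i * ψ g * (y ^ i)⁻¹ = ψ (cj (x ^ i) g) := by
  induction i with
  | zero => intro g; rw [pow_zero, pow_zero, map_one, MulAut.one_apply]; group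
  | succ i ih =>
    intro g
    rw [pow_succ' x, map_mul, MulAut.mul_apply, ← hx, ← ih, pow_succ']
    group

theorem scalar_of_psi {n : ℕ} [NeZero n] (hn : 3 ≤ n) {ψ : Matrix.SpecialLinearGroup (Fin n) k →* Y}
    (hψ : ∃ g, ψ g ≠ 1) {x : GL (Fin n) k} (hx : ∀ g, ψ (cj x g) = ψ g) : x ∈ scalars (Fin n) k := by
  refine scalar_of_cj fun g => ?_
  exact eq_of_psi hn hψ (f := (cj x).toMonoidHom) (g := MonoidHom.id _) hx g

theorem exists_zeta {ψ : Matrix.SpecialLinearGroup (Fin p) k →* Y} (hn : 3 ≤ p) (hψ : ∃ g, ψ g ≠ 1) {ya yb : Y}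
    (hcom : ya * yb = yb * ya) (hpa : ya ^ p = 1)
    {a b : GL (Fin p) k} (ha : ∀ g, ya * ψ g * ya⁻¹ = ψ (cj a g)) (hb : ∀ g, yb * ψ g * yb⁻¹ = ψ (cj b g))
    (hab : a * b ≠ b * a) : ∃ ζ : kˣ, ζ ≠ 1 ∧ ζ ^ p = 1 ∧ a * b = sc p ζ * (b * a) := by
  have hc : a * b * (b * a)⁻¹ ∈ scalars (Fin p) k := by
    refine scalar_of_psi hn hψ fun g => ?_
    have h3 : ∀ {y : Y} {x : GL (Fin p) k}, (∀ g, y * ψ g * y⁻¹ = ψ (cj x g)) → ∀ g, y⁻¹ * ψ g * y = ψ (cj x⁻¹ g) := by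
      intro y x hx g
      have h4 := hx (cj x⁻¹ g)
      rw [← MulAut.mul_apply, ← map_mul, mul_inv_cancel, map_one, MulAut.one_apply] at h4
      rw [← h4]
      group
    rw [mul_inv_rev, map_mul, map_mul, map_mul, MulAut.mul_apply, MulAut.mul_apply, MulAut.mul_apply, ← ha, ← hb, ← h3 ha,
      ← h3 hb]
    calc ya * (yb * (ya⁻¹ * (yb⁻¹ * ψ g * yb) * ya) * yb⁻¹) * ya⁻¹ =
          (ya * yb) * (yb * ya)⁻¹ * ψ g * ((ya * yb) * (yb * ya)⁻¹)⁻¹ := by group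
      _ = ψ g := by rw [hcom]; group
  obtain ⟨ζ, hζ⟩ := mem_scalars_iff_sc.1 hc
  have hab' : a * b = sc p ζ * (b * a) := by rw [← hζ, inv_mul_cancel_right]
  have hap : a ^ p ∈ scalars (Fin p) k := scalar_of_psi hn hψ fun g => by
    rw [← hpow ha, hpa]; group
  refine ⟨ζ, ?_, ?_, hab'⟩
  · rintro rfl
    exact hab (by rw [hab', sc_one, one_mul])
  · obtain ⟨z, hz⟩ := mem_scalars_iff_sc.1 hap
    have h3 : ∀ m : ℕ, a ^ m * b = sc p (ζ ^ m) * (b * a ^ m) := by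
      intro m
      induction m with
      | zero => simp [sc_one]
      | succ m ih =>
        calc a ^ (m + 1) * b = a * (a ^ m * b) := by rw [pow_succ']; group
          _ = (a * sc p (ζ ^ m)) * (b * a ^ m) := by rw [ih]; group
          _ = sc p (ζ ^ m) * ((a * b) * a ^ m) := by rw [← sc_comm]; group
          _ = sc p (ζ ^ m) * sc p ζ * (b * a ^ (m + 1)) := by rw [hab', pow_succ']; group
          _ = _ := by rw [← sc_mul, ← pow_succ]
    have h4 := h3 p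
    rw [hz, sc_comm z b] at h4
    have h5 : sc p (ζ ^ p) = 1 := mul_eq_right.1 h4.symm
    have h6 : (sc p (ζ ^ p) : Matrix (Fin p) (Fin p) k) 0 0 = ((1 : GL (Fin p) k) : Matrix (Fin p) (Fin p) k) 0 0 := by
      rw [h5]
    rw [sc_coe, Units.val_one, Matrix.smul_apply, Matrix.one_apply_eq, smul_eq_mul, mul_one] at h6
    exact Units.ext h6

variable {E B : Subgroup Y}

/-- **The kernel row with a subgroup of `SL_p(k)`.** -/
theorem orb_sl_of (h2 : p ≠ 2) (L : LinFacts.{u} p) (U : UniFacts.{u} p) (h7 : 7 ≤ p ∨ r ≠ 2) (he : 0 < e)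
    (hEp : ∀ a ∈ E, a ^ p = 1) (hEc : ∀ a ∈ E, ∀ b ∈ E, a * b = b * a)
    (hB : B ≤ E) (hBi : B.relIndex E = p ^ 2)
    {ψ : Matrix.SpecialLinearGroup (Fin p) k →* Y} (hψ : ∃ g, ψ g ≠ 1) (hBψ : ∀ x ∈ B, ∀ g, ψ g * x = x * ψ g)
    {D : GL (Fin p) k} {uni : Bool} {ya yb : Y} (hya : ya ∈ E) (hyb : yb ∈ E)
    {a b : GL (Fin p) k} (ha : ∀ g, ya * ψ g * ya⁻¹ = ψ (cj a g)) (hb : ∀ g, yb * ψ g * yb⁻¹ = ψ (cj b g))
    (hab : a * b ≠ b * a) (hca : ∀ g, stm r e D uni (cj a g) = cj a (stm r e D uni g))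
    (hcb : ∀ g, stm r e D uni (cj b g) = cj b (stm r e D uni g))
    {M : Subgroup (Matrix.SpecialLinearGroup (Fin p) k)}
    (hM : ∀ F ≤ E, F.relIndex E = p → ∀ g, stm r e D uni g = g → (∀ x ∈ F, ψ g * x = x * ψ g) → g ∈ M)
    {g : Matrix.SpecialLinearGroup (Fin p) k} (hg : stm r e D uni g = g) : g ∈ M := by
  have hn : 3 ≤ p := by have := hp.1.two_le; omega
  have hcom := hEc ya hya yb hyb
  obtain ⟨l, hl⟩ := stG_eq_sc hca
  obtain ⟨m, hm⟩ := stG_eq_sc hcb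
  obtain ⟨ζ, hζ1, hζp, hab'⟩ := exists_zeta hn hψ hcom (hEp ya hya) ha hb hab
  have hap : a ^ p ∈ scalars (Fin p) k := scalar_of_psi hn hψ fun g => by
    rw [← hpow ha, hEp ya hya]; group
  have hbp : b ^ p ∈ scalars (Fin p) k := scalar_of_psi hn hψ fun g => by
    rw [← hpow hb, hEp yb hyb]; group
  have hstd : Std r e D uni (stG r e D uni) := by
    cases uni
    · exact ⟨fun _ _ => rfl, fun h => by cases h⟩
    · exact ⟨fun h => (by cases h), fun _ _ => rfl⟩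
  have hfin : toGL g ∈ M.map toGL := by
    refine gen_alg_of h2 L U h7 he hstd hζ1 hab' hap hbp hl hm (M := M.map toGL) ?_ (toGL_mem g) ?_
    · intro f hf hfs x hx hxτ hxf
      obtain ⟨i, j, z, rfl⟩ := mem_closure_pair hab' hap hbp hf
      set x' : Matrix.SpecialLinearGroup (Fin p) k := ⟨x.1, mem_SL_iff.1 hx⟩ with hx'
      have hxx : toGL x' = x := Units.ext rfl
      refine ⟨x', ?_, hxx⟩
      have hfix : stm r e D uni x' = x' := toGL_inj' (by rw [toGL_stm, hxx, hxτ])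
      have h5 : cj (a ^ i * b ^ j) x' = x' := by
        apply toGL_inj'
        rw [toGL_cj, hxx, mul_inv_eq_iff_eq_mul]
        have h6 : sc p z * (x * (a ^ i * b ^ j)) = sc p z * (a ^ i * b ^ j * x) := by
          rw [← mul_assoc, sc_comm z x, mul_assoc, hxf, mul_assoc]
        exact (mul_left_cancel h6).symm
      have h6 : ya ^ i * yb ^ j * ψ x' * (ya ^ i * yb ^ j)⁻¹ = ψ x' := by
        conv_rhs => rw [← h5]
        rw [map_mul, MulAut.mul_apply, ← hpow ha, ← hpow hb]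
        group
      have hf' : ya ^ i * yb ^ j ∈ E := mul_mem (pow_mem hya i) (pow_mem hyb j)
      have hfB : ya ^ i * yb ^ j ∉ B := by
        intro hfB
        apply hfs
        refine (scalars (Fin p) k).mul_mem (sc_mem z) (scalar_of_psi hn hψ fun g => ?_)
        rw [map_mul, MulAut.mul_apply, ← hpow ha, ← hpow hb]
        have h3 := hBψ _ hfB g
        calc ya ^ i * (yb ^ j * ψ g * (yb ^ j)⁻¹) * (ya ^ i)⁻¹ = (ya ^ i * yb ^ j) * ψ g * (ya ^ i * yb ^ j)⁻¹ := by group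
          _ = ψ g := by rw [← h3]; group
      obtain ⟨F, hFE, hFi, -, -, hFm⟩ := exists_plane hEp hEc hB hBi hf' hfB
      refine hM F hFE hFi x' hfix fun y hy => ?_
      obtain ⟨b', hb', m', rfl⟩ := hFm y hy
      have h3 : Commute (ψ x') b' := hBψ b' hb' x'
      have h4 : Commute (ψ x') (ya ^ i * yb ^ j) := (mul_inv_eq_iff_eq_mul.1 h6).symm
      exact (h3.mul_right (h4.zpow_right m')).eq
    · rw [← toGL_stm, hg]
  obtain ⟨x, hx, hxg⟩ := hfin
  rw [← toGL_inj' hxg]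
  exact hx

/-- `r`-elements of `ψ (SL_p(k))` fixed by `σ` are images of fixed points of `stm` (`p ≠ r`). -/
theorem exists_fixed (hn : 3 ≤ p) (hpr : p ≠ r) {ψ : Matrix.SpecialLinearGroup (Fin p) k →* Y} (hψ : ∃ g, ψ g ≠ 1)
    {σ : Y →* Y} {D : GL (Fin p) k} {uni : Bool} (hσ : ∀ g, σ (ψ g) = ψ (stm r e D uni g))
    {g : Matrix.SpecialLinearGroup (Fin p) k} (hg : σ (ψ g) = ψ g) {m : ℕ} (hm : ψ g ^ r ^ m = 1) :
    ∃ x, stm r e D uni x = x ∧ ψ x = ψ g := by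
  have hcop : Nat.Coprime (r ^ m) p :=
    Nat.Coprime.pow_left _ ((Nat.coprime_primes Fact.out hp.1).2 (Ne.symm hpr))
  obtain ⟨N, hN1, hN2⟩ := Nat.chineseRemainder hcop 1 0
  have hN3 : p ∣ N := (Nat.modEq_zero_iff_dvd).1 hN2
  refine ⟨g ^ N, ?_, ?_⟩
  · obtain ⟨z, hz⟩ : ∃ z, stm r e D uni g = g * z := ⟨g⁻¹ * stm r e D uni g, by group⟩
    have hzc : z ∈ Subgroup.center (Matrix.SpecialLinearGroup (Fin p) k) := by
      refine ker_le_center hn hψ ?_
      have h4 : ψ (stm r e D uni g) = ψ g := by rw [← hσ, hg]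
      rw [hz, map_mul] at h4
      exact mul_eq_left.1 h4
    obtain ⟨N', rfl⟩ := hN3
    have hgz : Commute g z := (Subgroup.mem_center_iff.1 hzc g)
    rw [map_pow, hz, hgz.mul_pow, pow_mul z, center_pow hzc, one_pow, mul_one]
  · rw [map_pow]
    have h3 : ψ g ^ N = ψ g ^ 1 := by
      rw [pow_eq_pow_iff_modEq]
      exact hN1.of_dvd (orderOf_dvd_of_pow_eq_one hm)
    rw [h3, pow_one]

end Orb

end Cfsg.Agent.H321.Mono
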