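import Cfsg.Agent.H321.Mono.Base

/-!
# S2187, X4: frames of type `A_{p-1}` shifted by `E`

* `ShAct ψ m x` : `x` maps the root group `(i, j)` of `ψ (SL_n(k))` onto the root group `(i + m, j + m)`;
* `cyc_sl` : `E` elementary abelian, all `x ∈ E` act as shifts, `f ∈ E` as the shift by `1`: a subgroup `M ≤ SL_p(k)` which
  contains the fixed points `g` of `stm` such that `ψ g` commutes with a hyperplane of `E` contains all fixed points;
* `mem_Orr` : fixed points of `stm` are products of `r`-elements fixed by `σ`;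
* `cyc_mem` : the form for `r`-elements in a subgroup `H` of `Y`.
-/

set_option autoImplicit false
set_option linter.unusedSectionVars false

universe u

namespace Cfsg.Agent.H321.Mono

open Cfsg Cfsg.Geo Cfsg.Agent.H321.Ker
open scoped MatrixGroups Matrix commutatorElement
open Matrix.SpecialLinearGroup (toGL transvection)

section Sh

variable {n : ℕ} [NeZero n] {k : Type u} [Field k] {Y : Type*} [Group Y]

/-- `x` shifts the frame by `m` -/
def ShAct (ψ : Matrix.SpecialLinearGroup (Fin n) k →* Y) (m : Fin n) (x : Y) : Prop :=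
  ∃ c : Fin n → Fin n → k, (∀ i j, i ≠ j → c i j ≠ 0) ∧
    ∀ (i j : Fin n) (hij : i ≠ j) (i' j' : Fin n) (h' : i' ≠ j'), i' = i + m → j' = j + m → ∀ t : k,
      x * ψ (transvection hij t) * x⁻¹ = ψ (transvection h' (c i j * t))

variable {ψ : Matrix.SpecialLinearGroup (Fin n) k →* Y}

theorem ShAct.of_forall {m : Fin n} {x : Y} {c : Fin n → Fin n → k} (h0 : ∀ i j, i ≠ j → c i j ≠ 0)
    (h : ∀ (i j : Fin n) (hij : i ≠ j) (t : k),
      x * ψ (transvection hij t) * x⁻¹ = ψ (transvection (add_left_injective m |>.ne hij) (c i j * t))) :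
    ShAct ψ m x := by
  refine ⟨c, h0, fun i j hij i' j' h' hi hj t => ?_⟩
  subst hi hj
  exact h i j hij t

theorem ShAct.mul {m m' : Fin n} {x y : Y} (hx : ShAct ψ m x) (hy : ShAct ψ m' y) : ShAct ψ (m' + m) (x * y) := by
  obtain ⟨c, hc0, hc⟩ := hx
  obtain ⟨d, hd0, hd⟩ := hy
  refine ⟨fun i j => c (i + m') (j + m') * d i j, fun i j hij => mul_ne_zero
    (hc0 _ _ (add_left_injective m' |>.ne hij)) (hd0 i j hij), fun i j hij i' j' h' hi hj t => ?_⟩
  have h1 := hd i j hij _ _ (add_left_injective m' |>.ne hij) rfl rfl t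
  have h2 := hc _ _ (add_left_injective m' |>.ne hij) i' j' h' (by rw [hi, add_assoc]) (by rw [hj, add_assoc]) (d i j * t)
  have h3 : x * y * ψ (transvection hij t) * (x * y)⁻¹ = x * (y * ψ (transvection hij t) * y⁻¹) * x⁻¹ := by group
  rw [h3, h1, h2, mul_assoc]

theorem ShAct.inv {m : Fin n} {x : Y} (hx : ShAct ψ m x) : ShAct ψ (-m) x⁻¹ := by
  obtain ⟨c, hc0, hc⟩ := hx
  refine ⟨fun i j => (c (i + -m) (j + -m))⁻¹, fun i j hij => inv_ne_zero
    (hc0 _ _ (add_left_injective (-m) |>.ne hij)), fun i j hij i' j' h' hi hj t => ?_⟩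
  have h1 := hc i' j' h' i j hij (by rw [hi, neg_add_cancel_right]) (by rw [hj, neg_add_cancel_right])
    ((c (i + -m) (j + -m))⁻¹ * t)
  rw [← hi, ← hj, mul_inv_cancel_left₀ (hc0 i' j' h')] at h1
  show _ = ψ (transvection h' ((c (i + -m) (j + -m))⁻¹ * t))
  rw [← h1, ← hi, ← hj]
  group

theorem ShAct.one : ShAct ψ 0 1 := by
  refine ⟨fun _ _ => 1, fun _ _ _ => one_ne_zero, fun i j hij i' j' h' hi hj t => ?_⟩
  rw [add_zero] at hi hj
  subst hi hj
  rw [one_mul, inv_one, mul_one, one_mul]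

theorem ShAct.pow {m : Fin n} {x : Y} (hx : ShAct ψ m x) (i : ℕ) : ShAct ψ (i • m) (x ^ i) := by
  induction i with
  | zero => rw [zero_smul, pow_zero]; exact ShAct.one
  | succ i ih =>
    rw [pow_succ, succ_nsmul']
    exact ih.mul hx

theorem ShAct.zpow_zero {x : Y} (hx : ShAct ψ 0 x) (i : ℤ) : ShAct ψ 0 (x ^ i) := by
  cases i with
  | ofNat i =>
    have h1 := hx.pow i
    rw [smul_zero] at h1
    rw [Int.ofNat_eq_natCast, zpow_natCast]
    exact h1
  | negSucc i =>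
    have h1 := (hx.pow (i + 1)).inv
    rw [smul_zero, neg_zero] at h1
    rw [zpow_negSucc]
    exact h1

/-- elements commuting with `ψ (SL_n(k))` -/
theorem ShAct.of_comm {x : Y} (h : ∀ g, ψ g * x = x * ψ g) : ShAct ψ 0 x := by
  refine ⟨fun _ _ => 1, fun _ _ _ => one_ne_zero, fun i j hij i' j' h' hi hj t => ?_⟩
  rw [add_zero] at hi hj
  subst hi hj
  rw [one_mul, ← h, mul_inv_cancel_right]

theorem ShAct.exists_mono (hn : 3 ≤ n) {r : ℕ} [Fact r.Prime] [CharP k r]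
    (hinj : ∀ (i j : Fin n) (hij : i ≠ j), Function.Injective fun t : k => ψ (transvection hij t))
    {m : Fin n} {x : Y} (hx : ShAct ψ m x) :
    ∃ d : Fin n → kˣ, ∀ g, x * ψ g * x⁻¹ = ψ (cj (mono (Equiv.addRight m) d) g) := by
  obtain ⟨c, hc0, hc⟩ := hx
  obtain ⟨d, -, hd⟩ := exists_lin (r := r) (e := 0) (φ := (MulAut.conj x).toMonoidHom)
    (π := Equiv.addRight m) (c := c) hn hinj hc0 (fun i j hij t => by
      show x * ψ (transvection hij t) * x⁻¹ = _
      rw [hc i j hij _ _ (add_left_injective m |>.ne hij) rfl rfl t, pow_zero, pow_one]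
      rfl)
  refine ⟨d, fun g => ?_⟩
  have hst : ∀ (x : GL (Fin n) k) g, stm r 0 x false g = cj x g := by
    intro x g
    apply toGL_inj'
    rw [toGL_stm, stG_false, toGL_cj]
    have : fr r 0 (toGL g) = toGL g := by
      apply Units.ext
      ext i j
      rw [fr_apply, pow_zero, pow_one]
    rw [this]
  rw [← hst]
  exact hd g

end Sh

section Cyc

variable {p : ℕ} [hp : Fact p.Prime] [NeZero p] {k : Type u} [Field k] [IsAlgClosed k] {r e : ℕ} [Fact r.Prime]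
  [CharP k r] {Y : Type*} [Group Y] {ψ : Matrix.SpecialLinearGroup (Fin p) k →* Y}

theorem zero_ne_one_fin (hn : 3 ≤ p) : (0 : Fin p) ≠ 1 := by
  intro h
  have := congrArg Fin.val h
  rw [Fin.val_zero, Fin.val_one'] at this
  rw [Nat.mod_eq_of_lt (by omega)] at this
  omega

theorem nsmul_fin (hn : 3 ≤ p) (i : ℕ) (h : i < p) : i • (1 : Fin p) = ⟨i, h⟩ := by
  induction i with
  | zero =>
    rw [zero_smul]
    exact Fin.ext (Fin.val_zero p)
  | succ i ih =>
    rw [succ_nsmul, ih (by omega)]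
    apply Fin.ext
    rw [Fin.val_add, Fin.val_one', Nat.mod_eq_of_lt (by omega : 1 < p)]
    exact Nat.mod_eq_of_lt h

theorem exists_ne_one (hn : 3 ≤ p)
    (hinj : ∀ (i j : Fin p) (hij : i ≠ j), Function.Injective fun t : k => ψ (transvection hij t)) : ∃ g, ψ g ≠ 1 := by
  refine ⟨transvection (zero_ne_one_fin hn) 1, fun h => ?_⟩
  have h3 : ψ (transvection (zero_ne_one_fin hn) (1 : k)) = ψ (transvection (zero_ne_one_fin hn) (0 : k)) := by
    have h4 : transvection (zero_ne_one_fin hn) (0 : k) = 1 :=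
      toGL_inj' (Units.ext (by rw [toGL_transvection]; simp))
    rw [h, h4, map_one]
  exact one_ne_zero (hinj 0 1 (zero_ne_one_fin hn) h3)

/-- the commutator of two commuting elements -/
theorem exists_zeta' (hn : 3 ≤ p) (hψ : ∃ g, ψ g ≠ 1) {ya yb : Y}
    (hcom : ya * yb = yb * ya) (hpa : ya ^ p = 1)
    {a b : GL (Fin p) k} (ha : ∀ g, ya * ψ g * ya⁻¹ = ψ (cj a g)) (hb : ∀ g, yb * ψ g * yb⁻¹ = ψ (cj b g)) :
    ∃ ζ : kˣ, ζ ^ p = 1 ∧ a * b = sc p ζ * (b * a) := by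
  by_cases hab : a * b = b * a
  · exact ⟨1, one_pow _, by rw [sc_one, one_mul, hab]⟩
  · obtain ⟨ζ, -, h1, h2⟩ := exists_zeta hn hψ hcom hpa ha hb hab
    exact ⟨ζ, h1, h2⟩

theorem sc_injective {z z' : kˣ} (h : sc p z = sc p z') : z = z' := by
  have h3 : (sc p z : Matrix (Fin p) (Fin p) k) 0 0 = (sc p z' : Matrix (Fin p) (Fin p) k) 0 0 := by rw [h]
  rw [sc_coe, sc_coe, Matrix.smul_apply, Matrix.smul_apply, Matrix.one_apply_eq, smul_eq_mul, mul_one, smul_eq_mul,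
    mul_one] at h3
  exact Units.ext h3

theorem ShAct.absurd (hn : 3 ≤ p) (r : ℕ) [Fact r.Prime] [CharP k r]
    (hinj : ∀ (i j : Fin p) (hij : i ≠ j), Function.Injective fun t : k => ψ (transvection hij t)) {x : Y}
    (h0 : ShAct ψ 0 x) (h1 : ShAct ψ 1 x) : False := by
  have hψ := exists_ne_one hn hinj
  obtain ⟨d, hd⟩ := h0.exists_mono (r := r) hn hinj
  obtain ⟨d', hd'⟩ := h1.exists_mono (r := r) hn hinj
  have h2 : (mono (Equiv.addRight 1) d')⁻¹ * mono (Equiv.addRight 0) d ∈ scalars (Fin p) k := by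
    refine scalar_of_psi hn hψ fun g => ?_
    have h3 : ψ (cj (mono (Equiv.addRight 0) d) g) = ψ (cj (mono (Equiv.addRight 1) d') g) := by rw [← hd, hd']
    have h4 : cj (mono (Equiv.addRight 1) d') (cj ((mono (Equiv.addRight 1) d')⁻¹ * mono (Equiv.addRight 0) d) g) =
        cj (mono (Equiv.addRight 0) d) g := by
      rw [← MulAut.mul_apply, ← map_mul, mul_inv_cancel_left]
    rw [← h4, ← hd'] at h3
    rw [← hd' g] at h3
    exact mul_left_cancel (mul_right_cancel h3)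
  obtain ⟨z, hz⟩ := mem_scalars_iff_sc.1 h2
  have h3 : mono (Equiv.addRight 0) d = mono (Equiv.addRight 1) d' * sc p z := by
    rw [← hz, mul_inv_cancel_left]
  have h4 : (mono (Equiv.addRight 0) d : Matrix (Fin p) (Fin p) k) 0 0 =
      ((mono (Equiv.addRight 1) d' * sc p z : GL (Fin p) k) : Matrix (Fin p) (Fin p) k) 0 0 := by rw [h3]
  rw [Units.val_mul, sc_coe, Matrix.mul_smul, mul_one, Matrix.smul_apply, mono_coe, mono_coe, if_pos (by simp),
    if_neg, smul_zero] at h4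
  · exact (d 0).ne_zero h4
  · simp only [Equiv.coe_addRight, zero_add]
    exact zero_ne_one_fin hn

variable {E : Subgroup Y}

/-- **Frames shifted by `E`.** -/
theorem cyc_sl (h2 : p ≠ 2) (L : LinFacts.{u} p) (U : UniFacts.{u} p) (h7 : 7 ≤ p ∨ r ≠ 2) (he : 0 < e)
    (hEp : ∀ a ∈ E, a ^ p = 1) (hEc : ∀ a ∈ E, ∀ b ∈ E, a * b = b * a)
    (hinj : ∀ (i j : Fin p) (hij : i ≠ j), Function.Injective fun t : k => ψ (transvection hij t))
    {σ : Y →* Y} (hEσ : ∀ x ∈ E, σ x = x) {D : GL (Fin p) k} {uni : Bool}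
    (hσ : ∀ g, σ (ψ g) = ψ (stm r e D uni g)) {f : Y} (hf : f ∈ E) (hfs : ShAct ψ 1 f)
    (hE : ∀ x ∈ E, ∃ m, ShAct ψ m x)
    {M : Subgroup (Matrix.SpecialLinearGroup (Fin p) k)}
    (hM : ∀ F ≤ E, F.relIndex E = p → ∀ g, stm r e D uni g = g → (∀ x ∈ F, ψ g * x = x * ψ g) → g ∈ M)
    {g : Matrix.SpecialLinearGroup (Fin p) k} (hg : stm r e D uni g = g) : g ∈ M := by
  have hn : 3 ≤ p := by have := hp.1.two_le; omega
  have hψ := exists_ne_one hn hinj
  let B : Subgroup Y := E ⊓ Subgroup.centralizer (ψ.range : Set Y)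
  have hBE : B ≤ E := inf_le_left
  have hmemB : ∀ x, x ∈ B ↔ x ∈ E ∧ ∀ g, ψ g * x = x * ψ g := by
    intro x
    show x ∈ E ∧ x ∈ Subgroup.centralizer (ψ.range : Set Y) ↔ _
    rw [Subgroup.mem_centralizer_iff]
    constructor
    · rintro ⟨h1, h3⟩
      exact ⟨h1, fun g => h3 _ ⟨g, rfl⟩⟩
    · rintro ⟨h1, h3⟩
      refine ⟨h1, ?_⟩
      rintro _ ⟨g, rfl⟩
      exact h3 g
  have hBψ : ∀ x ∈ B, ∀ g, ψ g * x = x * ψ g := fun x hx => ((hmemB x).1 hx).2
  have hB0 : ∀ x ∈ B, ShAct ψ 0 x := fun x hx => ShAct.of_comm (hBψ x hx)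
  -- every element of `E` is a diagonal one times a power of `f`
  have hdec : ∀ x ∈ E, ∃ x' ∈ E, ShAct ψ 0 x' ∧ ∃ n : ℤ, x = x' * f ^ n := by
    intro x hx
    obtain ⟨m, hm⟩ := hE x hx
    have h1 : m.val • (1 : Fin p) = m := nsmul_fin hn m.val m.isLt
    have h3 : ShAct ψ 0 (x * (f ^ m.val)⁻¹) := by
      have h4 := hm.mul (hfs.pow m.val).inv
      rwa [h1, neg_add_cancel] at h4
    refine ⟨x * (f ^ m.val)⁻¹, mul_mem hx (inv_mem (pow_mem hf _)), h3, m.val, ?_⟩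
    rw [zpow_natCast, inv_mul_cancel_right]
  by_cases hA : ∀ x ∈ E, ShAct ψ 0 x → x ∈ B
  · -- the image of `E` is cyclic
    have hfB : f ∉ B := fun hfB => ShAct.absurd hn r hinj (hB0 f hfB) hfs
    have h1 : B.relIndex E = p := by
      refine relIndex_one hEp hEc hBE hf hfB fun x hx => ?_
      obtain ⟨x', hx', h3, n, h4⟩ := hdec x hx
      exact ⟨x', hA x' hx' h3, n, h4⟩
    exact hM B hBE h1 g hg fun x hx => hBψ x hx g
  · push Not at hA
    obtain ⟨y, hy, hy0, hyB⟩ := hA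
    have hadd0 : Equiv.addRight (0 : Fin p) = Equiv.refl (Fin p) := by
      ext i
      simp
    obtain ⟨dy, hdy⟩ := hy0.exists_mono (r := r) hn hinj
    obtain ⟨df, hdf⟩ := hfs.exists_mono (r := r) hn hinj
    rw [hadd0] at hdy
    set a := mono (Equiv.refl (Fin p)) dy with ha
    set b := mono (Equiv.addRight (1 : Fin p)) df with hb
    -- diagonal and commuting with `b`: in `B`
    have hdiag : ∀ (x : Y) (d : Fin p → kˣ), x ∈ E → (∀ g, x * ψ g * x⁻¹ = ψ (cj (mono (Equiv.refl (Fin p)) d) g)) →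
        mono (Equiv.refl (Fin p)) d * b = b * mono (Equiv.refl (Fin p)) d → x ∈ B := by
      intro x d hx hd hc
      rw [hmemB]
      refine ⟨hx, fun g => ?_⟩
      have h3 : mono (Equiv.refl (Fin p)) d = sc p (d 0) := by
        apply Units.ext
        ext i j
        rw [mono_coe, sc_coe, Matrix.smul_apply, Matrix.one_apply, Equiv.refl_apply, diag_comm_cycle hc j]
        by_cases hij : i = j <;> simp [hij]
      have h4 : cj (mono (Equiv.refl (Fin p)) d) g = g := by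
        apply toGL_inj'
        rw [toGL_cj, h3, sc_comm, mul_inv_cancel_right]
      have h5 := hd g
      rw [h4] at h5
      exact (mul_inv_eq_iff_eq_mul.1 h5).symm
    have hab : a * b ≠ b * a := fun hc => hyB (hdiag y dy hy hdy hc)
    obtain ⟨ζ, hζ1, hζp, hab'⟩ := exists_zeta hn hψ (hEc y hy f hf) (hEp y hy) hdy hdf hab
    have hord : orderOf ζ = p := orderOf_eq_prime hζp hζ1
    have hpow : ∀ m : ℕ, a ^ m * b = sc p (ζ ^ m) * (b * a ^ m) := by
      intro m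
      induction m with
      | zero => simp [sc_one]
      | succ m ih =>
        calc a ^ (m + 1) * b = a * (a ^ m * b) := by rw [pow_succ']; group
          _ = (a * sc p (ζ ^ m)) * (b * a ^ m) := by rw [ih]; group
          _ = sc p (ζ ^ m) * ((a * b) * a ^ m) := by rw [← sc_comm]; group
          _ = sc p (ζ ^ m) * sc p ζ * (b * a ^ (m + 1)) := by rw [hab', pow_succ']; group
          _ = _ := by rw [← sc_mul, ← pow_succ]
    have hzeta : ∀ z : kˣ, z ^ p = 1 → ∃ m : ℕ, z = ζ ^ m := by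
      intro z hz
      have hprim : IsPrimitiveRoot ζ p := hord ▸ IsPrimitiveRoot.orderOf ζ
      obtain ⟨m, -, hm⟩ := hprim.eq_pow_of_mem_rootsOfUnity (k := p) (ξ := z) (by rw [mem_rootsOfUnity]; exact hz)
      exact ⟨m, hm.symm⟩
    -- every diagonal element of `E` is a power of `y` modulo `B`
    have hdec2 : ∀ x ∈ E, ShAct ψ 0 x → ∃ b' ∈ B, ∃ m : ℤ, x = b' * y ^ m := by
      intro x hx hx0
      obtain ⟨dx, hdx⟩ := hx0.exists_mono (r := r) hn hinj
      rw [hadd0] at hdx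
      obtain ⟨z, hzp, hz⟩ := exists_zeta' hn hψ (hEc x hx f hf) (hEp x hx) hdx hdf
      obtain ⟨m, rfl⟩ := hzeta z hzp
      have hx2 : x * (y ^ m)⁻¹ ∈ E := mul_mem hx (inv_mem (pow_mem hy _))
      have hx3 : ShAct ψ 0 (x * (y ^ m)⁻¹) := by
        have h4 := hx0.mul (hy0.pow m).inv
        rwa [smul_zero, neg_zero, add_zero] at h4
      obtain ⟨d, hd⟩ := hx3.exists_mono (r := r) hn hinj
      rw [hadd0] at hd
      -- compare
      have h4 : (mono (Equiv.refl (Fin p)) dx)⁻¹ * (mono (Equiv.refl (Fin p)) d * a ^ m) ∈ scalars (Fin p) k := by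
        refine scalar_of_psi hn hψ fun g => ?_
        have h5 : ψ (cj (mono (Equiv.refl (Fin p)) d * a ^ m) g) = ψ (cj (mono (Equiv.refl (Fin p)) dx) g) := by
          rw [map_mul, MulAut.mul_apply, ← hd, ← hpow' hdy, ← hdx]
          group
        have h6 : cj (mono (Equiv.refl (Fin p)) dx)
            (cj ((mono (Equiv.refl (Fin p)) dx)⁻¹ * (mono (Equiv.refl (Fin p)) d * a ^ m)) g) =
            cj (mono (Equiv.refl (Fin p)) d * a ^ m) g := by
          rw [← MulAut.mul_apply, ← map_mul, mul_inv_cancel_left]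
        rw [← h6, ← hdx, ← hdx] at h5
        exact mul_left_cancel (mul_right_cancel h5)
      obtain ⟨s, hs⟩ := mem_scalars_iff_sc.1 h4
      have h5 : mono (Equiv.refl (Fin p)) d = mono (Equiv.refl (Fin p)) dx * sc p s * (a ^ m)⁻¹ := by
        rw [← hs]; group
      have h6 : mono (Equiv.refl (Fin p)) d * b = b * mono (Equiv.refl (Fin p)) d := by
        have h7 : (a ^ m)⁻¹ * b = sc p (ζ ^ m)⁻¹ * (b * (a ^ m)⁻¹) := by
          have h8 := hpow m
          calc (a ^ m)⁻¹ * b = (a ^ m)⁻¹ * (sc p (ζ ^ m)⁻¹ * (sc p (ζ ^ m) * (b * a ^ m))) * (a ^ m)⁻¹ := by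
                rw [← mul_assoc (sc p (ζ ^ m)⁻¹), ← sc_mul, inv_mul_cancel, sc_one]; group
            _ = (a ^ m)⁻¹ * (sc p (ζ ^ m)⁻¹ * (a ^ m * b)) * (a ^ m)⁻¹ := by rw [h8]
            _ = (a ^ m)⁻¹ * (sc p (ζ ^ m)⁻¹ * a ^ m) * b * (a ^ m)⁻¹ := by group
            _ = _ := by rw [sc_comm]; group
        calc mono (Equiv.refl (Fin p)) d * b = mono (Equiv.refl (Fin p)) dx * sc p s * ((a ^ m)⁻¹ * b) := by
              rw [h5]; group
          _ = mono (Equiv.refl (Fin p)) dx * sc p s * (sc p (ζ ^ m)⁻¹ * (b * (a ^ m)⁻¹)) := by rw [h7]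
          _ = mono (Equiv.refl (Fin p)) dx * (sc p s * (sc p (ζ ^ m)⁻¹ * b)) * (a ^ m)⁻¹ := by group
          _ = mono (Equiv.refl (Fin p)) dx * (sc p (ζ ^ m)⁻¹ * b * sc p s) * (a ^ m)⁻¹ := by rw [sc_comm s]
          _ = (mono (Equiv.refl (Fin p)) dx * sc p (ζ ^ m)⁻¹) * b * sc p s * (a ^ m)⁻¹ := by group
          _ = sc p (ζ ^ m)⁻¹ * (mono (Equiv.refl (Fin p)) dx * b) * sc p s * (a ^ m)⁻¹ := by
              rw [← sc_comm (ζ ^ m)⁻¹ (mono _ _)]; group
          _ = (sc p (ζ ^ m)⁻¹ * sc p (ζ ^ m)) * (b * mono (Equiv.refl (Fin p)) dx) * sc p s * (a ^ m)⁻¹ := by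
              rw [hz]; group
          _ = b * (mono (Equiv.refl (Fin p)) dx * sc p s * (a ^ m)⁻¹) := by
              rw [← sc_mul, inv_mul_cancel, sc_one]; group
          _ = _ := by rw [← h5]
      refine ⟨x * (y ^ m)⁻¹, hdiag _ d hx2 hd h6, m, ?_⟩
      rw [zpow_natCast, inv_mul_cancel_right]
    have hBi : B.relIndex E = p ^ 2 := by
      refine relIndex_two hEp hEc hBE hy hf hyB (fun b' hb' m h3 => ?_) fun x hx => ?_
      · refine ShAct.absurd hn r hinj (x := f) ?_ hfs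
        have h4 := (hB0 b' hb').mul (hy0.zpow_zero m)
        rw [← h3, add_zero] at h4
        exact h4
      · obtain ⟨x', hx', h3, n, h4⟩ := hdec x hx
        obtain ⟨b', hb', m, h5⟩ := hdec2 x' hx' h3
        exact ⟨b', hb', m, n, by rw [h4, h5]⟩
    exact orb_sl_of h2 L U h7 he hEp hEc hBE hBi hψ hBψ hy hf hdy hdf hab
      (comm_stm hn hψ hσ (hEσ y hy) hdy) (comm_stm hn hψ hσ (hEσ f hf) hdf) hM hg
where
  hpow' {y : Y} {x : GL (Fin p) k} (hx : ∀ g, y * ψ g * y⁻¹ = ψ (cj x g)) {i : ℕ}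
      {g : Matrix.SpecialLinearGroup (Fin p) k} : y ^ i * ψ g * (y ^ i)⁻¹ = ψ (cj (x ^ i) g) := hpow hx i g

theorem not_three_two (h7 : 7 ≤ p ∨ r ≠ 2) (he : 0 < e) : ¬ (p = 3 ∧ r ^ e = 2) := by
  rintro ⟨h3, hre⟩
  rcases h7 with h7 | h7
  · omega
  · apply h7
    have h4 : r ∣ 2 := hre ▸ dvd_pow_self r he.ne'
    exact (Nat.prime_dvd_prime_iff_eq Fact.out Nat.prime_two).1 h4

/-- fixed points of `stm` are products of `r`-elements fixed by `σ` -/
theorem mem_closure_r {n : ℕ} [NeZero n] {ψ : Matrix.SpecialLinearGroup (Fin n) k →* Y} (hn : 3 ≤ n)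
    (h32 : ¬ (n = 3 ∧ r ^ e = 2)) (he : 0 < e)
    {σ : Y →* Y} {D : GL (Fin n) k} {uni : Bool}
    (hσ : ∀ g, σ (ψ g) = ψ (stm r e D uni g)) {g : Matrix.SpecialLinearGroup (Fin n) k} (hg : stm r e D uni g = g) :
    ψ g ∈ Subgroup.closure {u : Y | σ u = u ∧ ∃ j : ℕ, u ^ r ^ j = 1} := by
  have h1 := fix_gen hn he h32 hg
  have h3 : Subgroup.closure {h : Matrix.SpecialLinearGroup (Fin n) k | stm r e D uni h = h ∧ h ^ r = 1} ≤
      (Subgroup.closure {u : Y | σ u = u ∧ ∃ j : ℕ, u ^ r ^ j = 1}).comap ψ := by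
    rw [Subgroup.closure_le]
    rintro y ⟨hy, hyr⟩
    exact Subgroup.subset_closure ⟨by rw [hσ, hy], 1, by rw [pow_one, ← map_pow, hyr, map_one]⟩
  exact h3 h1

/-- **Frames shifted by `E`: fixed points.** -/
theorem cyc_fix (h2 : p ≠ 2) (L : LinFacts.{u} p) (U : UniFacts.{u} p) (h7 : 7 ≤ p ∨ r ≠ 2) (he : 0 < e)
    (hEp : ∀ a ∈ E, a ^ p = 1) (hEc : ∀ a ∈ E, ∀ b ∈ E, a * b = b * a)
    (hinj : ∀ (i j : Fin p) (hij : i ≠ j), Function.Injective fun t : k => ψ (transvection hij t))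
    {σ : Y →* Y} (hEσ : ∀ x ∈ E, σ x = x) {D : GL (Fin p) k} {uni : Bool}
    (hσ : ∀ g, σ (ψ g) = ψ (stm r e D uni g)) {f : Y} (hf : f ∈ E) (hfs : ShAct ψ 1 f)
    (hE : ∀ x ∈ E, ∃ m, ShAct ψ m x) {H : Subgroup Y}
    (hH : ∀ F ≤ E, F.relIndex E = p → ∀ u ∈ Subgroup.closure {u : Y | σ u = u ∧ ∃ j : ℕ, u ^ r ^ j = 1},
      (∀ x ∈ F, x * u = u * x) → u ∈ H)
    {g : Matrix.SpecialLinearGroup (Fin p) k} (hg : stm r e D uni g = g) : ψ g ∈ H := by
  have hn : 3 ≤ p := by have := hp.1.two_le; omega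
  exact cyc_sl h2 L U h7 he hEp hEc hinj hEσ hσ hf hfs hE (M := H.comap ψ)
    (fun F hFE hFi x hx hxF => hH F hFE hFi (ψ x) (mem_closure_r hn (not_three_two h7 he) he hσ hx)
      fun y hy => (hxF y hy).symm) hg

/-- **Frames shifted by `E`: `r`-elements.** -/
theorem cyc_mem (h2 : p ≠ 2) (L : LinFacts.{u} p) (U : UniFacts.{u} p) (h7 : 7 ≤ p ∨ r ≠ 2) (he : 0 < e) (hpr : p ≠ r)
    (hEp : ∀ a ∈ E, a ^ p = 1) (hEc : ∀ a ∈ E, ∀ b ∈ E, a * b = b * a)
    (hinj : ∀ (i j : Fin p) (hij : i ≠ j), Function.Injective fun t : k => ψ (transvection hij t))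
    {σ : Y →* Y} (hEσ : ∀ x ∈ E, σ x = x) {D : GL (Fin p) k} {uni : Bool}
    (hσ : ∀ g, σ (ψ g) = ψ (stm r e D uni g)) {f : Y} (hf : f ∈ E) (hfs : ShAct ψ 1 f)
    (hE : ∀ x ∈ E, ∃ m, ShAct ψ m x) {H : Subgroup Y}
    (hH : ∀ F ≤ E, F.relIndex E = p → ∀ u ∈ Subgroup.closure {u : Y | σ u = u ∧ ∃ j : ℕ, u ^ r ^ j = 1},
      (∀ x ∈ F, x * u = u * x) → u ∈ H)
    {u : Y} (hu : u ∈ ψ.range) (hσu : σ u = u) (hr : ∃ j : ℕ, u ^ r ^ j = 1) : u ∈ H := by
  have hn : 3 ≤ p := by have := hp.1.two_le; omega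
  obtain ⟨g, rfl⟩ := hu
  obtain ⟨j, hj⟩ := hr
  obtain ⟨x, hx, hxg⟩ := exists_fixed hn hpr (exists_ne_one hn hinj) hσ hσu hj
  rw [← hxg]
  exact cyc_fix h2 L U h7 he hEp hEc hinj hEσ hσ hf hfs hE hH hx

end Cyc

end Cfsg.Agent.H321.Mono
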