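import Cfsg.Agent.H321.Mono.Cyc
import Cfsg.Agent.H918.UProper

/-!
# S2187, X4: the fixed points of `stm` in `SL_n(k)` are quasisimple

* `Quasi K` : `K` is perfect, normal subgroups are central or everything;
* `FixG` : the fixed points of `stm`; `exists_model`, `quasi_fix`, `comm_fix`.
-/

set_option autoImplicit false
set_option linter.unusedSectionVars false

universe u

namespace Cfsg.Agent.H321.Mono

open Cfsg Cfsg.Geo Cfsg.Agent.H321.Ker
open scoped MatrixGroups Matrix commutatorElement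
open Matrix.SpecialLinearGroup (toGL transvection)

/-- perfect, normal subgroups central or everything -/
structure Quasi (K : Type*) [Group K] : Prop where
  perf : commutator K = ⊤
  nrm : ∀ N : Subgroup K, N.Normal → N ≤ Subgroup.center K ∨ N = ⊤

theorem Quasi.of_surjective {K K' : Type*} [Group K] [Group K'] (h : Quasi K) {θ : K →* K'}
    (hθ : Function.Surjective θ) : Quasi K' where
  perf := by
    rw [eq_top_iff]
    intro y _
    obtain ⟨x, rfl⟩ := hθ y
    have hx : x ∈ commutator K := by rw [h.perf]; exact Subgroup.mem_top _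
    have h1 : commutator K ≤ (commutator K').comap θ := by
      rw [commutator_def, Subgroup.commutator_le]
      intro a _ b _
      show θ ⁅a, b⁆ ∈ commutator K'
      rw [map_commutatorElement]
      exact Subgroup.commutator_mem_commutator (Subgroup.mem_top _) (Subgroup.mem_top _)
    exact h1 hx
  nrm N hN := by
    rcases h.nrm (N.comap θ) inferInstance with h1 | h1
    · left
      intro y hy
      obtain ⟨x, rfl⟩ := hθ y
      have h2 : x ∈ Subgroup.center K := h1 hy
      rw [Subgroup.mem_center_iff] at h2 ⊢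
      intro z
      obtain ⟨w, rfl⟩ := hθ z
      rw [← map_mul, h2 w, map_mul]
    · right
      rw [eq_top_iff]
      intro y _
      obtain ⟨x, rfl⟩ := hθ y
      have h2 : x ∈ N.comap θ := by rw [h1]; exact Subgroup.mem_top _
      exact h2

theorem quasi_SL {F : Type*} [Field F] {n : ℕ} [NeZero n] (hn : 3 ≤ n) : Quasi (Matrix.SpecialLinearGroup (Fin n) F) where
  perf := perfect hn
  nrm N hN := by
    by_cases h : ∃ g, QuotientGroup.mk' N g ≠ 1
    · left
      have := ker_le_center hn h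
      rwa [QuotientGroup.ker_mk'] at this
    · right
      push Not at h
      rw [eq_top_iff]
      intro g _
      have := h g
      rwa [QuotientGroup.mk'_apply, QuotientGroup.eq_one_iff] at this

theorem quasi_SU {F : Type*} [Field F] [Fintype F] {n q : ℕ} (hF : Fintype.card F = q ^ 2) (hn : 3 ≤ n)
    (h32 : ¬ (n = 3 ∧ q = 2)) : Quasi (SU n F q) where
  perf := Cfsg.Agent.LieClassical.HermPerfect.commutator_SU_eq_top hF hn h32
  nrm N hN := by
    by_cases h : N ≤ Subgroup.center (SU n F q)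
    · exact Or.inl h
    · exact Or.inr (Cfsg.Agent.LieClassical.HermPerfect.normal_eq_top hF hn h32 h)

section Fix

variable {n : ℕ} [NeZero n] {k : Type u} [Field k] [IsAlgClosed k] {r e : ℕ} [Fact r.Prime] [CharP k r]

/-- `SL_n` of a subfield -/
def exSL (F₀ : Subfield k) (x : GL (Fin n) k) : Matrix.SpecialLinearGroup (Fin n) F₀ →* Matrix.SpecialLinearGroup (Fin n) k :=
  (cj x).toMonoidHom.comp (Matrix.SpecialLinearGroup.map (F₀.subtype : F₀ →+* k))

theorem toGL_exSL (F₀ : Subfield k) (x : GL (Fin n) k) (A : Matrix.SpecialLinearGroup (Fin n) F₀) :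
    toGL (exSL F₀ x A) = x * ex n F₀ (toGL A) * x⁻¹ := by
  show toGL (cj x (Matrix.SpecialLinearGroup.map (F₀.subtype : F₀ →+* k) A)) = _
  rw [toGL_cj]
  have h1 : toGL (Matrix.SpecialLinearGroup.map (F₀.subtype : F₀ →+* k) A) = ex n F₀ (toGL A) := Units.ext rfl
  rw [h1]

/-- **The fixed points of `stm`.** -/
theorem exists_model (hn : 3 ≤ n) (he : 0 < e) (h32 : ¬ (n = 3 ∧ r ^ e = 2)) (D : GL (Fin n) k) (uni : Bool) :
    ∃ (F₀ : Subfield k) (x : GL (Fin n) k) (G₀ : Subgroup (Matrix.SpecialLinearGroup (Fin n) F₀)), Quasi ↥G₀ ∧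
      (∀ M : Matrix (Fin n) (Fin n) F₀, (∀ A ∈ G₀, M * (A : Matrix (Fin n) (Fin n) F₀) =
        (A : Matrix (Fin n) (Fin n) F₀) * M) → ∃ c : F₀, M = c • (1 : Matrix (Fin n) (Fin n) F₀)) ∧
      (∀ A ∈ G₀, stm r e D uni (exSL F₀ x A) = exSL F₀ x A) ∧
      ∀ g, stm r e D uni g = g → ∃ A ∈ G₀, exSL F₀ x A = g := by
  have : Nontrivial (Fin n) := Fin.nontrivial_iff_two_le.2 (by omega)
  have hsl : ∀ {g : Matrix.SpecialLinearGroup (Fin n) k} {F₀ : Subfield k} {x : GL (Fin n) k} {g₀ : GL (Fin n) F₀},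
      ex n F₀ g₀ = x⁻¹ * toGL g * x → g₀ ∈ specialLinear (Fin n) F₀ := by
    intro g F₀ x g₀ hg₀
    have h3 : ex n F₀ g₀ ∈ specialLinear (Fin n) k := by
      rw [hg₀]
      have := conj_mem_SL x⁻¹ (toGL_mem g)
      rwa [inv_inv] at this
    rw [mem_SL_iff] at h3 ⊢
    have h4 : (ex n F₀ g₀ : Matrix (Fin n) (Fin n) k) =
      (F₀.subtype : F₀ →+* k).mapMatrix (g₀ : Matrix (Fin n) (Fin n) F₀) := rfl
    rw [h4, ← RingHom.map_det] at h3
    exact Subtype.ext h3
  cases uni with
  | false =>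
    obtain ⟨x, hx⟩ := lang_fr (r := r) he D
    refine ⟨Fk r e, x, ⊤, (quasi_SL hn).of_surjective (θ := (Subgroup.topEquiv.symm : _ ≃* _).toMonoidHom)
      (MulEquiv.surjective _), ?_, ?_, ?_⟩
    · intro M hM
      have h1 : M ∈ Set.range (Matrix.scalar (Fin n)) := by
        refine Matrix.mem_range_scalar_of_commute_transvectionStruct fun t => ?_
        have h2 := hM (transvection t.hij t.c) (Subgroup.mem_top _)
        exact h2.symm
      obtain ⟨c, hc⟩ := h1
      refine ⟨c, ?_⟩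
      rw [← hc, Matrix.smul_one_eq_diagonal]
      rfl
    · intro A _
      apply toGL_inj'
      rw [toGL_stm, toGL_exSL, stG_false_conj hx, fr_ex]
    · intro g hg
      have hgG : stG r e D false (toGL g) = toGL g := by rw [← toGL_stm, hg]
      have h1 : fr r e (x⁻¹ * toGL g * x) = x⁻¹ * toGL g * x := by
        have h2 := stG_false_conj hx (x⁻¹ * toGL g * x)
        have h3 : x * (x⁻¹ * toGL g * x) * x⁻¹ = toGL g := by group
        rw [h3, hgG] at h2
        calc fr r e (x⁻¹ * toGL g * x) = x⁻¹ * (x * fr r e (x⁻¹ * toGL g * x) * x⁻¹) * x := by group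
          _ = _ := by rw [← h2]
      obtain ⟨g₀, hg₀⟩ := exists_ex h1
      obtain ⟨A, hA⟩ : ∃ A : Matrix.SpecialLinearGroup (Fin n) (Fk r e : Subfield k), toGL A = g₀ :=
        ⟨⟨g₀.1, mem_SL_iff.1 (hsl hg₀)⟩, Units.ext rfl⟩
      refine ⟨A, Subgroup.mem_top _, ?_⟩
      apply toGL_inj'
      rw [toGL_exSL, hA, hg₀]
      group
  | true =>
    obtain ⟨x, hx⟩ := lang_it (r := r) he D
    have he2 : 0 < e + e := by omega
    have := finite_Fk (k := k) (r := r) he2
    let _ : Fintype (Fk r (e + e) : Subfield k) := Fintype.ofFinite _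
    have hcard : Fintype.card (Fk r (e + e) : Subfield k) = (r ^ e) ^ 2 := by
      rw [← Nat.card_eq_fintype_card, card_Fk_alg he2, ← pow_mul, mul_two]
    refine ⟨Fk r (e + e), x, SU n (Fk r (e + e) : Subfield k) (r ^ e), quasi_SU hcard hn h32, ?_, ?_, ?_⟩
    · intro M hM
      refine (Cfsg.Agent.H918.SUg_absIrreducible hcard hn).2 M ?_
      rintro _ ⟨g, hg, rfl⟩
      obtain ⟨A, rfl⟩ := Cfsg.Agent.H918.exists_suHom hg
      exact hM A.1 A.2
    · intro A hA
      have hA' : toGL A ∈ GU n (Fk r (e + e) : Subfield k) (r ^ e) :=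
        (Cfsg.Agent.H918.suHom_mem (⟨A, hA⟩ : SU n (Fk r (e + e) : Subfield k) (r ^ e))).1
      apply toGL_inj'
      rw [toGL_stm, toGL_exSL, stG_true_conj hx, it_of_mem_GU hA']
    · intro g hg
      have hgG : stG r e D true (toGL g) = toGL g := by rw [← toGL_stm, hg]
      have h1 : it (fr r e (x⁻¹ * toGL g * x)) = x⁻¹ * toGL g * x := by
        have h2 := stG_true_conj hx (x⁻¹ * toGL g * x)
        have h3 : x * (x⁻¹ * toGL g * x) * x⁻¹ = toGL g := by group
        rw [h3, hgG] at h2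
        calc it (fr r e (x⁻¹ * toGL g * x)) = x⁻¹ * (x * it (fr r e (x⁻¹ * toGL g * x)) * x⁻¹) * x := by group
          _ = _ := by rw [← h2]
      have hctct : fr r (e + e) (x⁻¹ * toGL g * x) = x⁻¹ * toGL g * x := by
        rw [← fr_fr]
        have h3 : ∀ y : GL (Fin n) k, it (fr r e (it (fr r e y))) = fr r e (fr r e y) := fun y => by
          rw [← it_fr, it_it]
        rw [← h3, h1, h1]
      obtain ⟨g₀, hg₀⟩ := exists_ex hctct
      have hU : g₀ ∈ Cfsg.Agent.H918.SUg n (Fk r (e + e) : Subfield k) (r ^ e) :=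
        ⟨mem_GU_of_it (by rw [hg₀, h1]), hsl hg₀⟩
      obtain ⟨A, hA⟩ := Cfsg.Agent.H918.exists_suHom hU
      refine ⟨A.1, A.2, ?_⟩
      apply toGL_inj'
      rw [toGL_exSL]
      have h4 : toGL A.1 = g₀ := hA
      rw [h4, hg₀]
      group

variable (r e) in
/-- the fixed points of `stm` -/
def FixG (D : GL (Fin n) k) (uni : Bool) : Subgroup (Matrix.SpecialLinearGroup (Fin n) k) :=
  (stm r e D uni).eqLocus (MonoidHom.id _)

theorem mem_FixG {D : GL (Fin n) k} {uni : Bool} {g : Matrix.SpecialLinearGroup (Fin n) k} :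
    g ∈ FixG r e D uni ↔ stm r e D uni g = g := Iff.rfl

theorem quasi_fix (hn : 3 ≤ n) (he : 0 < e) (h32 : ¬ (n = 3 ∧ r ^ e = 2)) (D : GL (Fin n) k) (uni : Bool) :
    Quasi ↥(FixG r e D uni) := by
  obtain ⟨F₀, x, G₀, h1, -, h3, h4⟩ := exists_model (r := r) hn he h32 D uni
  refine h1.of_surjective (θ := ((exSL F₀ x).comp G₀.subtype).codRestrict (FixG r e D uni) fun A => h3 A.1 A.2) ?_
  rintro ⟨g, hg⟩
  obtain ⟨A, hA, h5⟩ := h4 g hg
  exact ⟨⟨A, hA⟩, Subtype.ext h5⟩

/-- the fixed points of `stm` have scalar centraliser in `GL_n(k)` -/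
theorem comm_fix (hn : 3 ≤ n) (he : 0 < e) (h32 : ¬ (n = 3 ∧ r ^ e = 2)) {D : GL (Fin n) k} {uni : Bool}
    {y : GL (Fin n) k} (hy : ∀ g ∈ FixG r e D uni, y * toGL g = toGL g * y) : y ∈ scalars (Fin n) k := by
  obtain ⟨F₀, x, G₀, -, h2, h3, -⟩ := exists_model (r := r) hn he h32 D uni
  set z := x⁻¹ * y * x with hz
  have hzc : ∀ A ∈ G₀, z * ex n F₀ (toGL A) = ex n F₀ (toGL A) * z := by
    intro A hA
    have h4 := hy _ (h3 A hA)
    rw [toGL_exSL] at h4
    calc z * ex n F₀ (toGL A) = x⁻¹ * (y * (x * ex n F₀ (toGL A) * x⁻¹)) * x := by rw [hz]; group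
      _ = x⁻¹ * (x * ex n F₀ (toGL A) * x⁻¹ * y) * x := by rw [h4]
      _ = _ := by rw [hz]; group
  -- functionals
  have hφ : ∀ φ : Module.Dual F₀ k, ∃ c : F₀, ∀ i j, φ ((z : Matrix (Fin n) (Fin n) k) i j) =
      if i = j then c else 0 := by
    intro φ
    obtain ⟨c, hc⟩ := h2 (Matrix.of fun i j => φ ((z : Matrix (Fin n) (Fin n) k) i j)) fun A hA => by
      have h4 := congrArg (fun M : GL (Fin n) k => (M : Matrix (Fin n) (Fin n) k)) (hzc A hA)
      refine Matrix.ext fun i j => ?_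
      have h5 := congrArg φ (congrFun (congrFun h4 i) j)
      simp only [Units.val_mul, Matrix.mul_apply, map_sum] at h5
      rw [Matrix.mul_apply, Matrix.mul_apply]
      simp only [Matrix.of_apply]
      have h6 : ∀ i j, (ex n F₀ (toGL A) : Matrix (Fin n) (Fin n) k) i j =
          (((A : Matrix (Fin n) (Fin n) F₀) i j : F₀) : k) := fun i j => rfl
      have h7 : ∀ (a : F₀) (b : k), φ ((a : k) * b) = a * φ b := fun a b => by
        have : (a : k) * b = a • b := rfl
        rw [this, map_smul, smul_eq_mul]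
      simp only [h6] at h5
      calc ∑ t, φ ((z : Matrix (Fin n) (Fin n) k) i t) * (A : Matrix (Fin n) (Fin n) F₀) t j =
            ∑ t, φ ((z : Matrix (Fin n) (Fin n) k) i t * (((A : Matrix (Fin n) (Fin n) F₀) t j : F₀) : k)) := by
              refine Finset.sum_congr rfl fun t _ => ?_
              rw [mul_comm ((z : Matrix (Fin n) (Fin n) k) i t), h7, mul_comm]
        _ = _ := h5
        _ = _ := by
              refine Finset.sum_congr rfl fun t _ => ?_
              rw [h7]
    refine ⟨c, fun i j => ?_⟩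
    have h4 := congrFun (congrFun hc i) j
    rw [Matrix.of_apply, Matrix.smul_apply, Matrix.one_apply] at h4
    rw [h4]
    by_cases hij : i = j <;> simp [hij]
  have hsep : ∀ v : k, (∀ φ : Module.Dual F₀ k, φ v = 0) → v = 0 := fun v hv =>
    (Module.forall_dual_apply_eq_zero_iff F₀ v).1 hv
  have hoff : ∀ i j, i ≠ j → (z : Matrix (Fin n) (Fin n) k) i j = 0 := fun i j hij => hsep _ fun φ => by
    obtain ⟨c, hc⟩ := hφ φ
    rw [hc, if_neg hij]
  have hon : ∀ i, (z : Matrix (Fin n) (Fin n) k) i i = (z : Matrix (Fin n) (Fin n) k) 0 0 := fun i => by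
    rw [← sub_eq_zero]
    refine hsep _ fun φ => ?_
    obtain ⟨c, hc⟩ := hφ φ
    rw [map_sub, hc, hc, if_pos rfl, if_pos rfl, sub_self]
  have h0 : (z : Matrix (Fin n) (Fin n) k) = (z : Matrix (Fin n) (Fin n) k) 0 0 • 1 := by
    ext i j
    rw [Matrix.smul_apply, Matrix.one_apply]
    by_cases hij : i = j
    · subst hij
      rw [if_pos rfl, smul_eq_mul, mul_one, hon]
    · rw [if_neg hij, smul_zero, hoff i j hij]
  have hz0 : (z : Matrix (Fin n) (Fin n) k) 0 0 ≠ 0 := by
    intro h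
    rw [h, zero_smul] at h0
    have h1 : (z : Matrix (Fin n) (Fin n) k) * (z⁻¹ : GL (Fin n) k).1 = 1 := by
      rw [← Units.val_mul, mul_inv_cancel, Units.val_one]
    rw [h0, zero_mul] at h1
    have := congrFun (congrFun h1 0) 0
    simp at this
  have hzs : z = sc n (Units.mk0 _ hz0) := Units.ext (by rw [sc_coe, Units.val_mk0]; exact h0)
  have hy' : y = x * z * x⁻¹ := by rw [hz]; group
  rw [hy', hzs, ← sc_comm, mul_inv_cancel_right]
  exact sc_mem _

end Fix

end Cfsg.Agent.H321.Mono
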